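import Cfsg.Agent.H162.CC.Tools3
import Cfsg.Agent.H19.Odd.Srg
import Cfsg.Agent.SignalizersComponents.Components
import Cfsg.Agent.Fischer480.Defs
import Cfsg.Prelude.Def_Local

/-!
# Commutator closed sets of `p`-elements: quasisimple centralizers, 3-transposition groups (helper184, S3828)

* `pCore_le_center_of_quasisimple`;
* `eq_one_of_srg` : `p` odd, a class of involutions with `O_p(C(d)) = 1` whose commuting graph is strongly regular with
  eigenvalues `r`, `s` with `r - s` not dividing `k - s`;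
* `comm_of_two` : two 3-transpositions whose product has 2-power order commute;
* `conj_sq_eq` : `p = 2`: a transposition `d` commuting with `d ^ c`, `c ∈ C`, commutes with `c ^ 2`.
-/

set_option autoImplicit false

namespace Cfsg.Agent.H184.CCGen

open Subgroup Cfsg Cfsg.Agent.H162.CCR Cfsg.Agent.Lib.Cores Cfsg.Agent.Fischer480.Defs

section Quasi

variable {X : Type*} [Group X] [Finite X] {p : ℕ} [hp : Fact p.Prime]

theorem pCore_le_center_of_quasisimple (hq : IsQuasisimple X) : pCore p X ≤ center X := by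
  have hs : IsSimpleGroup (X ⧸ center X) := hq.2
  have hna : ¬ Group.IsSolvable (X ⧸ center X) := by
    intro h1
    apply Cfsg.Agent.SignalizersComponents.Components.quasisimple_not_isSolvable hq
    have h2 : Group.IsSolvable ↥(center X) :=
      Group.isSolvable_of_comm (fun a b => Subtype.ext (mem_center_iff.1 b.2 a))
    exact (Group.isSolvable_iff_subgroup_quotient (center X)).2 ⟨h2, h1⟩
  have hN : ((pCore p X).map (QuotientGroup.mk' (center X))).Normal :=
    Subgroup.Normal.map inferInstance _ (QuotientGroup.mk'_surjective _)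
  rcases hN.eq_bot_or_eq_top with h | h
  · intro x hx
    have h1 : QuotientGroup.mk' (center X) x ∈ (pCore p X).map (QuotientGroup.mk' (center X)) := ⟨x, hx, rfl⟩
    rw [h, mem_bot] at h1
    exact (QuotientGroup.eq_one_iff x).1 h1
  · exfalso
    apply hna
    have h1 : IsPGroup p ((pCore p X).map (QuotientGroup.mk' (center X))) := (pCore_isPGroup p).map _
    rw [h] at h1
    have h2 : IsPGroup p (X ⧸ center X) := h1.of_equiv Subgroup.topEquiv
    have h3 : Group.IsNilpotent (X ⧸ center X) := h2.isNilpotent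
    infer_instance

theorem pCore_eq_bot_of_quasisimple (hq : IsQuasisimple X) (hc : ¬ p ∣ Nat.card (center X)) : pCore p X = ⊥ := by
  rw [← Subgroup.card_eq_one]
  obtain ⟨n, hn⟩ := (IsPGroup.iff_card.1 (pCore_isPGroup (G := X) p))
  rcases Nat.eq_zero_or_pos n with h0 | h0
  · rw [hn, h0, pow_zero]
  · exfalso
    apply hc
    have h1 := Subgroup.card_dvd_of_le (pCore_le_center_of_quasisimple (p := p) hq)
    rw [hn] at h1
    exact (dvd_pow_self p h0.ne').trans h1

end Quasi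

section Srg

variable {G : Type*} [Group G] [Finite G] {p : ℕ} [hp : Fact p.Prime]

open scoped Classical in
/-- **The graph argument.** -/
theorem eq_one_of_srg (hp2 : p ≠ 2) {C : Set G} (h : Min p C) {E : Set G} (hne : E.Nonempty)
    (h2 : ∀ d ∈ E, orderOf d = 2) (hconj : ∀ g : G, ∀ d ∈ E, g * d * g⁻¹ ∈ E)
    (hcore : ∀ d ∈ E, centralizer ({d} : Set G) ≠ ⊤ ∧ pCore p ↥(centralizer ({d} : Set G)) = ⊥)
    {k l m : ℕ} (hk : ∀ x ∈ E, (Loc E x).ncard = k)
    (hl : ∀ x ∈ E, ∀ y ∈ Loc E x, (Loc (Loc E x) y).ncard = l)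
    (hm : ∀ x ∈ E, ∀ y ∈ E, ¬ Commute x y → (Com E x y).ncard = m)
    {r s : ℤ} (h3 : r + s = l - m) (h4 : r * s = m - k) (hrs : r ≠ s) (hdiv : ¬ r - s ∣ (k : ℤ) - s) :
    ∀ c ∈ C, c = 1 := by
  intro c hc
  by_contra hc1
  have hfin : Fintype ↥E := Fintype.ofFinite _
  obtain ⟨d₀, hd₀⟩ := hne
  have hne' : Nonempty ↥E := ⟨⟨d₀, hd₀⟩⟩
  let a : MulAut G := MulAut.conj c⁻¹
  have haE : ∀ d : G, a d = c⁻¹ * d * c := fun d => by
    show MulAut.conj c⁻¹ d = _
    rw [MulAut.conj_apply, inv_inv]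
  have ha : ∀ d ∈ E, a d ∈ E := fun d hd => by
    have := hconj c⁻¹ d hd
    rwa [inv_inv, ← haE] at this
  have hnc : ∀ d ∈ E, ¬ Commute d (a d) := by
    intro d hd hcomm
    rw [haE] at hcomm
    refine h.comm_false hc hc1 (g := d) ?_ hcomm ?_
    · rw [h2 d hd]
      exact (Nat.coprime_primes Nat.prime_two hp.out).2 (Ne.symm hp2)
    · intro x hx
      obtain ⟨g, hg⟩ := isConj_iff.1 hx
      have hxE : x ∈ E := by rw [← hg]; exact hconj g d hd
      obtain ⟨k1, k2⟩ := hcore x hxE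
      exact ⟨centralizer {x}, k1, le_rfl, k2⟩
  let f : ↥E → ↥E := fun d => ⟨a d, ha _ d.2⟩
  have hf : Function.Injective f := fun x y h => Subtype.ext (a.injective (congrArg Subtype.val h))
  let σ : Equiv.Perm ↥E := Equiv.ofBijective f (Finite.injective_iff_bijective.1 hf)
  have hσ : ∀ d : ↥E, ((σ d : ↥E) : G) = a d := fun d => rfl
  let R : ↥E → ↥E → Prop := fun a b => (b : G) ≠ a ∧ Commute (a : G) b
  have cardset : ∀ (p : ↥E → Prop) [DecidablePred p] (S : Set G), (∀ z : G, z ∈ S ↔ ∃ h : z ∈ E, p ⟨z, h⟩) →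
      (Finset.univ.filter fun z => p z).card = S.ncard := by
    intro p _ S hS
    rw [← Set.ncard_coe_finset]
    have : S = Subtype.val '' (((Finset.univ.filter fun z => p z) : Finset ↥E) : Set ↥E) := by
      ext z
      rw [hS]
      constructor
      · rintro ⟨h, hp⟩
        exact ⟨⟨z, h⟩, by simpa using hp, rfl⟩
      · rintro ⟨⟨w, h⟩, hp, rfl⟩
        exact ⟨h, by simpa using hp⟩
    rw [this, Set.ncard_image_of_injective _ Subtype.val_injective]
  refine hdiv (Cfsg.Agent.H19.Odd.Srg.main (V := ↥E) R (fun a b h => ⟨h.1.symm, h.2.symm⟩) (fun a h => h.1 rfl)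
    (k := k) (l := l) (m := m) ?_ ?_ ?_ h3 h4 hrs σ ?_ ?_ ?_)
  · intro x
    rw [← hk x.1 x.2]
    refine cardset _ _ ?_
    intro z
    constructor
    · rintro ⟨a1, a2, a3⟩
      exact ⟨a1, a2, a3⟩
    · rintro ⟨a1, a2, a3⟩
      exact ⟨a1, a2, a3⟩
  · rintro ⟨x, hx⟩ ⟨y, hy⟩ ⟨b1, b2⟩
    rw [← hl x hx y ⟨hy, b1, b2⟩]
    refine cardset _ _ ?_
    intro z
    constructor
    · rintro ⟨⟨a1, a2, a3⟩, a4, a5⟩
      exact ⟨a1, ⟨a2, a3⟩, Ne.symm a4, a5.symm⟩
    · rintro ⟨a1, ⟨a2, a3⟩, a4, a5⟩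
      exact ⟨⟨a1, a2, a3⟩, Ne.symm a4, a5.symm⟩
  · rintro ⟨x, hx⟩ ⟨y, hy⟩ hxa hR
    have hxa' : ¬ Commute x y := by
      intro h
      apply hR
      refine ⟨?_, h⟩
      intro h'
      exact hxa (Subtype.ext h'.symm)
    rw [← hm x hx y hy hxa']
    refine cardset _ _ ?_
    intro z
    constructor
    · rintro ⟨a1, a2, a3⟩
      refine ⟨a1, ⟨?_, a2⟩, ?_, a3.symm⟩
      · rintro rfl
        exact hxa' a3.symm
      · rintro rfl
        exact hxa' a2
    · rintro ⟨a1, ⟨a2, a3⟩, a4, a5⟩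
      exact ⟨a1, a3, a5.symm⟩
  · rintro ⟨x, hx⟩ ⟨y, hy⟩
    show (a y ≠ a x ∧ Commute (a x) (a y)) ↔ (y ≠ x ∧ Commute x y)
    have e1 : (a y = a x) ↔ y = x := a.injective.eq_iff
    have e2 : Commute (a x) (a y) ↔ Commute x y := by
      constructor
      · intro h
        have h4 := congrArg a.symm h.eq
        rw [map_mul, map_mul, MulEquiv.symm_apply_apply, MulEquiv.symm_apply_apply] at h4
        exact h4
      · intro h
        exact h.map a
    rw [Ne, e1, e2]
  · rintro ⟨x, hx⟩ h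
    have h5 : a x = x := congrArg Subtype.val h
    apply hnc x hx
    rw [h5]
  · rintro ⟨x, hx⟩ ⟨-, b2⟩
    exact hnc x hx b2

end Srg

section Two

variable {G : Type*} [Group G]

/-- two 3-transpositions whose product has 2-power order commute -/
theorem comm_of_two {x y : G} (hxx : x * x = 1) (hyy : y * y = 1) (h3 : x * y = y * x ∨ x * y * x = y * x * y)
    {k : ℕ} (h : (x * y) ^ 2 ^ k = 1) : x * y = y * x := by
  rcases h3 with h3 | h3
  · exact h3
  · have h4 : (x * y) ^ 3 = 1 := by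
      calc (x * y) ^ 3 = (x * y * x) * (y * x * y) := by rw [pow_succ, pow_two]; group
        _ = (y * x * y) * (y * x * y) := by rw [h3]
        _ = y * x * (y * y) * x * y := by group
        _ = y * (x * x) * y := by rw [hyy]; group
        _ = 1 := by rw [hxx, mul_one, hyy]
    have h5 : orderOf (x * y) ∣ 2 ^ k := orderOf_dvd_of_pow_eq_one h
    have h6 : orderOf (x * y) ∣ 3 := orderOf_dvd_of_pow_eq_one h4
    have h7 : (2 ^ k).Coprime 3 := Nat.Coprime.pow_left k (by norm_num)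
    have h8 : orderOf (x * y) ∣ 1 := by
      have := Nat.dvd_gcd h5 h6
      rwa [h7] at this
    have h9 : x * y = 1 := orderOf_eq_one_iff.1 (Nat.dvd_one.1 h8)
    have h10 : x = y := by
      calc x = x * y * y := by rw [mul_assoc, hyy, mul_one]
        _ = y := by rw [h9, one_mul]
    rw [h10]

/-- a transposition `d` commuting with `d ^ c`, `c ∈ C`, commutes with `c ^ 2` -/
theorem conj_sq_eq [Finite G] {C : Set G} (h : Min 2 C) (hO : pCore 2 G = ⊥) {c d : G} (hc : c ∈ C)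
    (hdd : d * d = 1)
    (h3 : c⁻¹ * (c⁻¹ * d * c) * c * d = d * (c⁻¹ * (c⁻¹ * d * c) * c) ∨
      c⁻¹ * (c⁻¹ * d * c) * c * d * (c⁻¹ * (c⁻¹ * d * c) * c) = d * (c⁻¹ * (c⁻¹ * d * c) * c) * d)
    (hcd : d * (c⁻¹ * d * c) = (c⁻¹ * d * c) * d) : c⁻¹ * (c⁻¹ * d * c) * c = d := by
  obtain ⟨a1, ha1⟩ : ∃ a1, a1 = c⁻¹ * d * c := ⟨_, rfl⟩
  obtain ⟨a2, ha2⟩ : ∃ a2, a2 = c⁻¹ * a1 * c := ⟨_, rfl⟩
  rw [← ha1, ← ha2] at h3 ⊢
  rw [← ha1] at hcd
  have h11 : a1 * a1 = 1 := by
    rw [ha1]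
    calc c⁻¹ * d * c * (c⁻¹ * d * c) = c⁻¹ * (d * d) * c := by group
      _ = 1 := by rw [hdd]; group
  have h22 : a2 * a2 = 1 := by
    rw [ha2]
    calc c⁻¹ * a1 * c * (c⁻¹ * a1 * c) = c⁻¹ * (a1 * a1) * c := by group
      _ = 1 := by rw [h11]; group
  have h12 : a1 * a2 = a2 * a1 := by
    have h5 := congrArg (fun z => c⁻¹ * z * c) hcd
    have e1 : c⁻¹ * (d * a1) * c = a1 * a2 := by rw [ha2, ha1]; group
    have e2 : c⁻¹ * (a1 * d) * c = a2 * a1 := by rw [ha2, ha1]; group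
    rw [e1, e2] at h5
    exact h5
  have hmem := h.comm_conj d hc
  have e : c⁻¹ * (d⁻¹ * c * d)⁻¹ * c * (d⁻¹ * c * d) = a2 * d := by
    have e1 : c⁻¹ * (d⁻¹ * c * d)⁻¹ * c * (d⁻¹ * c * d) = a1⁻¹ * a2 * a1⁻¹ * d := by
      rw [ha2, ha1]; group
    have e2 : a1⁻¹ = a1 := inv_eq_of_mul_eq_one_left h11
    rw [e1, e2, h12, mul_assoc a2, h11, mul_one]
  rw [e] at hmem
  obtain ⟨k, hk⟩ := h.pel _ hmem
  have hcomm : a2 * d = d * a2 := comm_of_two h22 hdd h3 (k := k) (by rw [← hk, pow_orderOf_eq_one])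
  have hsq : a2 * d * (a2 * d) = 1 := by
    calc a2 * d * (a2 * d) = a2 * (d * a2) * d := by group
      _ = (a2 * a2) * (d * d) := by rw [← hcomm]; group
      _ = 1 := by rw [h22, hdd, one_mul]
  have h1 := h.sq_ne_one hO hmem hsq
  calc a2 = a2 * d * d := by rw [mul_assoc, hdd, mul_one]
    _ = d := by rw [h1, one_mul]

end Two

end Cfsg.Agent.H184.CCGen
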